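import Mathlib
import Cfsg.Agent.Lib.CoprimeAction.Abelian

/-!
Generation of the fixed points of a subgroup `B` of an abelian 2-group `A` acting on a solvable
group `Y = [Y,A]` of odd order: `C_Y(B)` is generated by the groups
`C_Y(B) ∩ [C_Y(B₀),A]` with `B/B₀` cyclic.
-/

set_option autoImplicit false
set_option linter.style.haveILetI false

open scoped commutatorElement

namespace CfsgLib.Signalizer.CoprimeGen

open CfsgLib.CoprimeAction

universe u

variable {G : Type u} [Group G]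

/-- The subgroup generated by `C_Y(B) ∩ [C_Y(B₀),A]` for `B/B₀` cyclic. -/
def genSub (A B Y : Subgroup G) : Subgroup G :=
  ⨆ B₀ : {B₀ : Subgroup G //
      B₀ ≤ B ∧ ∀ [(B₀.subgroupOf B).Normal], IsCyclic (↥B ⧸ B₀.subgroupOf B)},
    Y ⊓ Subgroup.centralizer (B : Set G) ⊓
      ⁅Y ⊓ Subgroup.centralizer ((B₀ : Subgroup G) : Set G), A⁆

theorem genSub_le (A B Y : Subgroup G) :
    genSub A B Y ≤ Y ⊓ Subgroup.centralizer (B : Set G) :=
  iSup_le fun _ => inf_le_left

theorem genSub_mono (A B : Subgroup G) {Y Y' : Subgroup G} (h : Y ≤ Y') :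
    genSub A B Y ≤ genSub A B Y' :=
  iSup_mono fun _ =>
    inf_le_inf (inf_le_inf h le_rfl) (Subgroup.commutator_mono (inf_le_inf h le_rfl) le_rfl)

theorem le_genSub {A B Y B₀ : Subgroup G} (h : B₀ ≤ B)
    (hc : ∀ [(B₀.subgroupOf B).Normal], IsCyclic (↥B ⧸ B₀.subgroupOf B)) :
    Y ⊓ Subgroup.centralizer (B : Set G) ⊓ ⁅Y ⊓ Subgroup.centralizer (B₀ : Set G), A⁆ ≤
      genSub A B Y :=
  le_iSup_of_le ⟨B₀, h, hc⟩ le_rfl

theorem isCyclic_quotient_self (B : Subgroup G) [(B.subgroupOf B).Normal] :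
    IsCyclic (↥B ⧸ B.subgroupOf B) := by
  haveI : Subsingleton (↥B ⧸ B.subgroupOf B) :=
    QuotientGroup.subsingleton_iff.mpr (Subgroup.subgroupOf_self B)
  infer_instance

theorem fixed_commutator_le_genSub {A B Y : Subgroup G} :
    Y ⊓ Subgroup.centralizer (B : Set G) ⊓ ⁅Y ⊓ Subgroup.centralizer (B : Set G), A⁆ ≤
      genSub A B Y :=
  le_genSub le_rfl (isCyclic_quotient_self B)

theorem comm_of_mem {A : Subgroup G} (hAc : IsMulCommutative ↥A) {a b : G} (ha : a ∈ A)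
    (hb : b ∈ A) : a * b = b * a :=
  haveI := hAc
  congrArg Subtype.val (mul_comm' (⟨a, ha⟩ : A) ⟨b, hb⟩)

theorem isMulCommutative_of_le_centralizer {D E : Subgroup G} (h : D ≤ E)
    (hc : D ≤ Subgroup.centralizer (E : Set G)) : IsMulCommutative ↥D :=
  ⟨⟨fun a b => Subtype.ext (Subgroup.mem_centralizer_iff.mp (hc b.2) a (h a.2))⟩⟩

theorem le_normalizer_of_le_comm {A D : Subgroup G} (hAc : IsMulCommutative ↥A) (hD : D ≤ A) :
    A ≤ Subgroup.normalizer (D : Set G) := fun a ha => by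
  rw [Subgroup.mem_normalizer_iff]
  intro x
  constructor
  · intro hx
    rw [comm_of_mem hAc ha (hD hx), mul_inv_cancel_right]
    exact hx
  · intro hx
    have h := comm_of_mem hAc ha (hD hx)
    have : x = a * x * a⁻¹ := by
      have h' : a⁻¹ * (a * x * a⁻¹) * a = a * x * a⁻¹ := by
        rw [mul_assoc, ← h]; simp [mul_assoc]
      calc x = a⁻¹ * (a * x * a⁻¹) * a := by simp [mul_assoc]
        _ = a * x * a⁻¹ := h'
    rw [this]
    exact hx

variable [Finite G]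

theorem mem_normalizer_commutator {H K : Subgroup G} {g : G}
    (hH : g ∈ Subgroup.normalizer (H : Set G)) (hK : g ∈ Subgroup.normalizer (K : Set G)) :
    g ∈ Subgroup.normalizer ((⁅H, K⁆ : Subgroup G) : Set G) := by
  refine mem_normalizer_of_conj_mem fun x hx => ?_
  have h : ⁅H, K⁆.map (MulAut.conj g).toMonoidHom ≤ ⁅H, K⁆ := by
    rw [Subgroup.map_commutator]
    refine Subgroup.commutator_mono ?_ ?_
    · rintro _ ⟨y, hy, rfl⟩; simpa using conj_mem hH hy
    · rintro _ ⟨y, hy, rfl⟩; simpa using conj_mem hK hy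
  simpa using h ⟨x, hx, rfl⟩

theorem le_normalizer_commutator {S H K : Subgroup G}
    (hH : S ≤ Subgroup.normalizer (H : Set G)) (hK : S ≤ Subgroup.normalizer (K : Set G)) :
    S ≤ Subgroup.normalizer ((⁅H, K⁆ : Subgroup G) : Set G) :=
  fun _ hs => mem_normalizer_commutator (hH hs) (hK hs)

theorem le_normalizer_map_of_characteristic {Y : Subgroup G} (K : Subgroup Y) [K.Characteristic] :
    Subgroup.normalizer (Y : Set G) ≤ Subgroup.normalizer ((K.map Y.subtype : Subgroup G) : Set G) := by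
  intro b hb
  refine mem_normalizer_of_conj_mem ?_
  rintro _ ⟨x, hx, rfl⟩
  let φ : Y ≃* Y :=
    { toFun := fun y => ⟨b * y * b⁻¹, conj_mem hb y.2⟩
      invFun := fun y => ⟨b⁻¹ * y * b, conj_mem' hb y.2⟩
      left_inv := fun y => Subtype.ext (by simp [mul_assoc])
      right_inv := fun y => Subtype.ext (by simp [mul_assoc])
      map_mul' := fun y z => Subtype.ext (by simp [mul_assoc]) }
  have : K.comap φ.toMonoidHom = K := (Subgroup.characteristic_iff_comap_eq.mp inferInstance) φ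
  exact ⟨φ x, this.symm.le hx, rfl⟩

theorem le_normalizer_inf_centralizer {A Y D : Subgroup G} (hAc : IsMulCommutative ↥A)
    (hAY : A ≤ Subgroup.normalizer (Y : Set G)) (hD : D ≤ A) :
    A ≤ Subgroup.normalizer ((Y ⊓ Subgroup.centralizer (D : Set G) : Subgroup G) : Set G) :=
  fun a ha => mem_normalizer_of_conj_mem fun x hx => ⟨conj_mem (hAY ha) hx.1,
    Subgroup.mul_mem _ (Subgroup.mul_mem _
      (Subgroup.mem_centralizer_iff.mpr fun d hd => comm_of_mem hAc (hD hd) ha) hx.2)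
      (Subgroup.inv_mem _ (Subgroup.mem_centralizer_iff.mpr fun d hd =>
        comm_of_mem hAc (hD hd) ha))⟩

theorem coprime_card {A D : Subgroup G} (hA2 : IsPGroup 2 ↥A) (hodd : Odd (Nat.card ↥D)) :
    (Nat.card A).Coprime (Nat.card D) := by
  haveI : Fact (Nat.Prime 2) := ⟨Nat.prime_two⟩
  obtain ⟨n, hn⟩ := IsPGroup.iff_card.mp hA2
  rw [hn]
  exact Nat.Coprime.pow_left n (Nat.coprime_two_left.mpr hodd)

theorem odd_of_le {D Y : Subgroup G} (h : D ≤ Y) (hodd : Odd (Nat.card ↥Y)) :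
    Odd (Nat.card ↥D) :=
  hodd.of_dvd_nat (Subgroup.card_dvd_of_le h)

theorem mem_of_sq_mem {H Y : Subgroup G} (hodd : Odd (Nat.card ↥Y)) {r : G} (hr : r ∈ Y)
    (h : r ^ 2 ∈ H) : r ∈ H := by
  have hc : Nat.Coprime 2 (orderOf r) := Nat.coprime_two_left.mpr
    (hodd.of_dvd_nat ((Y.orderOf_mk r hr) ▸ orderOf_dvd_natCard _))
  obtain ⟨m, hm⟩ := exists_pow_eq_self_of_coprime hc
  exact hm ▸ pow_mem h m

/-- A subgroup containing the fixed points of `x`, `y` and `x y` contains the group. -/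
theorem le_of_three_centralizers {R H : Subgroup G} (hsol : Group.IsSolvable ↥R)
    (hodd : Odd (Nat.card ↥R)) {A : Subgroup G} (hA2 : IsPGroup 2 ↥A)
    (hAc : IsMulCommutative ↥A) (hAR : A ≤ Subgroup.normalizer (R : Set G)) {x y : G}
    (hx : x ∈ A) (hy : y ∈ A) (hx2 : ∀ r ∈ R, x ^ 2 * r = r * x ^ 2)
    (hy2 : ∀ r ∈ R, y ^ 2 * r = r * y ^ 2)
    (hH : ∀ z ∈ ({x, y, x * y} : Set G), R ⊓ Subgroup.centralizer ({z} : Set G) ≤ H) : R ≤ H := by
  classical
  induction R using WellFoundedLT.induction with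
  | ind R ih =>
    rcases eq_or_ne R ⊥ with rfl | hR
    · exact bot_le
    haveI := hsol
    have hlt := commutator_lt_of_isSolvable R hR
    have hD : ⁅R, R⁆ ≤ H := ih _ hlt (isSolvable_of_le hlt.le) (odd_of_le hlt.le hodd)
      (le_normalizer_commutator hAR hAR) (fun r hr => hx2 r (hlt.le hr))
      (fun r hr => hy2 r (hlt.le hr)) fun z hz => (inf_le_inf hlt.le le_rfl).trans (hH z hz)
    intro r hr
    refine mem_of_sq_mem hodd hr ?_
    -- an element fixed by `z` modulo `[R,R]` lies in `H`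
    have hfix : ∀ z ∈ A, z ∈ ({x, y, x * y} : Set G) → ∀ e ∈ R,
        e⁻¹ * (z * e * z⁻¹) ∈ ⁅R, R⁆ → e ∈ H := by
      intro z hzA hz e he hze
      have hzN : z ∈ Subgroup.normalizer ((⁅R, R⁆ : Subgroup G) : Set G) :=
        mem_normalizer_commutator (hAR hzA) (hAR hzA)
      have hpow : ∀ i : ℕ, e⁻¹ * (z ^ i * e * (z ^ i)⁻¹) ∈ ⁅R, R⁆ := by
        intro i
        induction i with
        | zero => simp
        | succ i IH =>
          have := Subgroup.mul_mem _ hze (conj_mem hzN IH)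
          rw [pow_succ']
          simpa [mul_assoc] using this
      have hle : Subgroup.zpowers z ≤ A := Subgroup.zpowers_le.mpr hzA
      obtain ⟨c, hc, hcD⟩ := exists_centralizer_mem_coset_of_le (K := R)
        (Subgroup.zpowers_le.mpr hzN) hlt.le
        ((coprime_card hA2 (odd_of_le hlt.le hodd)).coprime_dvd_left (Subgroup.card_dvd_of_le hle))
        (Or.inl (isSolvable_zpowers z)) he (fun a ha => by
          obtain ⟨i, _, rfl⟩ : ∃ i : ℕ, i < orderOf z ∧ z ^ i = a := by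
            simpa using (isOfFinOrder_of_finite z).mem_zpowers_iff_mem_range_orderOf.mp ha
          exact hpow i)
      have hcH : c ∈ H := hH z hz ⟨hc.1, Subgroup.mem_centralizer_singleton_iff.mpr
        (Subgroup.mem_centralizer_iff.mp hc.2 z (Subgroup.mem_zpowers z)).symm⟩
      have := Subgroup.mul_mem _ hcH (Subgroup.inv_mem _ (hD hcD))
      simpa using this
    -- work modulo `[R,R]`
    have hswap : ∀ u ∈ R, ∀ v ∈ R, (u * v)⁻¹ * (v * u) ∈ ⁅R, R⁆ := fun u hu v hv => by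
      have := Subgroup.commutator_mem_commutator (R.inv_mem hv) (R.inv_mem hu)
      simpa [commutatorElement_def, mul_assoc] using this
    have hxy : x * y = y * x := comm_of_mem hAc hx hy
    have hrx : x * r * x⁻¹ ∈ R := conj_mem (hAR hx) hr
    have hry : y * r * y⁻¹ ∈ R := conj_mem (hAR hy) hr
    have hxx : x * (x * r * x⁻¹) * x⁻¹ = r := by
      calc x * (x * r * x⁻¹) * x⁻¹ = x ^ 2 * r * (x ^ 2)⁻¹ := by simp [pow_two, mul_assoc]
        _ = r := by rw [hx2 r hr, mul_inv_cancel_right]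
    have hyy : y * (y * r * y⁻¹) * y⁻¹ = r := by
      calc y * (y * r * y⁻¹) * y⁻¹ = y ^ 2 * r * (y ^ 2)⁻¹ := by simp [pow_two, mul_assoc]
        _ = r := by rw [hy2 r hr, mul_inv_cancel_right]
    have h1 : r * (x * r * x⁻¹) ∈ H := hfix x hx (by simp) _ (R.mul_mem hr hrx) (by
      rw [show x * (r * (x * r * x⁻¹)) * x⁻¹ = (x * r * x⁻¹) * (x * (x * r * x⁻¹) * x⁻¹) by
        simp [mul_assoc], hxx]
      exact hswap r hr _ hrx)
    have h2 : r * (y * r * y⁻¹) ∈ H := hfix y hy (by simp) _ (R.mul_mem hr hry) (by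
      rw [show y * (r * (y * r * y⁻¹)) * y⁻¹ = (y * r * y⁻¹) * (y * (y * r * y⁻¹) * y⁻¹) by
        simp [mul_assoc], hyy]
      exact hswap r hr _ hry)
    have h3 : (x * r * x⁻¹) * (y * r * y⁻¹) ∈ H := by
      refine hfix (x * y) (A.mul_mem hx hy) (by simp) _ (R.mul_mem hrx hry) ?_
      have hA : x * y * (x * r * x⁻¹) * (x * y)⁻¹ = y * (x * (x * r * x⁻¹) * x⁻¹) * y⁻¹ := by
        rw [hxy]; simp [mul_assoc]
      have hB : x * y * (y * r * y⁻¹) * (x * y)⁻¹ = x * (y * (y * r * y⁻¹) * y⁻¹) * x⁻¹ := by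
        simp [mul_assoc]
      rw [show x * y * (x * r * x⁻¹ * (y * r * y⁻¹)) * (x * y)⁻¹ =
        (x * y * (x * r * x⁻¹) * (x * y)⁻¹) * (x * y * (y * r * y⁻¹) * (x * y)⁻¹) by
        simp [mul_assoc], hA, hB, hxx, hyy]
      exact hswap _ hrx _ hry
    generalize x * r * x⁻¹ = s at hrx h1 h3
    generalize y * r * y⁻¹ = t at hry h2 h3
    -- `(r s)(r t)(s t)⁻¹ ≡ r ^ 2`
    have hcorr : (r * s * (r * t) * (s * t)⁻¹)⁻¹ * (r ^ 2) ∈ ⁅R, R⁆ := by
      have h := Subgroup.commutator_mem_commutator hr hrx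
      have hn : r ∈ Subgroup.normalizer ((⁅R, R⁆ : Subgroup G) : Set G) :=
        mem_normalizer_commutator (Subgroup.le_normalizer hr) (Subgroup.le_normalizer hr)
      have := conj_mem' hn h
      simpa [commutatorElement_def, pow_two, mul_assoc] using this
    have := H.mul_mem (H.mul_mem (H.mul_mem h1 h2) (H.inv_mem h3)) (hD hcorr)
    rwa [mul_inv_cancel_left] at this

/-- `C_Y(B₁) ≤ ⟨C_Y(B₀) : B/B₀ cyclic⟩`. -/
theorem centralizer_le_of_cyclic_quotients {A B Y S : Subgroup G} (hA2 : IsPGroup 2 ↥A)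
    (hAc : IsMulCommutative ↥A) (hB : B ≤ A) (hsol : Group.IsSolvable ↥Y)
    (hodd : Odd (Nat.card ↥Y)) (hAY : A ≤ Subgroup.normalizer (Y : Set G))
    (hS : ∀ B₀ : Subgroup G, B₀ ≤ B →
      (∀ [(B₀.subgroupOf B).Normal], IsCyclic (↥B ⧸ B₀.subgroupOf B)) →
      Y ⊓ Subgroup.centralizer (B₀ : Set G) ≤ S)
    {B₁ : Subgroup G} (hB₁ : B₁ ≤ B) : Y ⊓ Subgroup.centralizer (B₁ : Set G) ≤ S := by
  induction B₁ using WellFoundedGT.induction with
  | ind B₁ ih =>
    haveI : IsMulCommutative ↥B :=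
      ⟨⟨fun a b => Subtype.ext (comm_of_mem hAc (hB a.2) (hB b.2))⟩⟩
    haveI hn : (B₁.subgroupOf B).Normal :=
      ⟨fun n hn g => by rw [mul_comm' g n, mul_inv_cancel_right]; exact hn⟩
    by_cases hc : IsCyclic (↥B ⧸ B₁.subgroupOf B)
    · exact hS B₁ hB₁ hc
    haveI : Fact (Nat.Prime 2) := ⟨Nat.prime_two⟩
    let π := QuotientGroup.mk' (B₁.subgroupOf B)
    have hπ : Function.Surjective π := QuotientGroup.mk'_surjective _
    haveI hQc : IsMulCommutative (↥B ⧸ B₁.subgroupOf B) := ⟨⟨fun a b => by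
      obtain ⟨a, rfl⟩ := hπ a
      obtain ⟨b, rfl⟩ := hπ b
      rw [← map_mul, ← map_mul, mul_comm' a b]⟩⟩
    haveI : IsMulCommutative ↥(⊤ : Subgroup (↥B ⧸ B₁.subgroupOf B)) :=
      ⟨⟨fun a b => Subtype.ext (mul_comm' a.1 b.1)⟩⟩
    obtain ⟨p, qx, qy, hp, -, -, hxo, hyo, hyx⟩ :=
      exists_two_generators (A := (⊤ : Subgroup (↥B ⧸ B₁.subgroupOf B)))
        fun h => hc (Subgroup.topEquiv.isCyclic.mp h)
    have hp2 : p = 2 := by
      obtain ⟨n, hn⟩ :=
        IsPGroup.iff_orderOf.mp ((hA2.to_le hB).to_quotient (B₁.subgroupOf B)) qx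
      rw [hxo] at hn
      exact (Nat.prime_dvd_prime_iff_eq hp Nat.prime_two).mp
        (hp.dvd_of_dvd_pow (dvd_of_eq hn))
    subst hp2
    obtain ⟨x, hqx⟩ := hπ qx
    obtain ⟨y, hqy⟩ := hπ qy
    have hxq : (x : G) ∉ B₁ := fun h => by
      have : qx = 1 := hqx ▸ (QuotientGroup.eq_one_iff x).mpr h
      rw [this, orderOf_one] at hxo
      exact absurd hxo (by norm_num)
    have hyq : (y : G) ∉ B₁ := fun h => by
      have : qy = 1 := hqy ▸ (QuotientGroup.eq_one_iff y).mpr h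
      rw [this, orderOf_one] at hyo
      exact absurd hyo (by norm_num)
    have hxyq : (x : G) * y ∉ B₁ := fun h => by
      have : qx * qy = 1 := by
        rw [← hqx, ← hqy, ← map_mul]; exact (QuotientGroup.eq_one_iff _).mpr h
      exact hyx ((eq_inv_of_mul_eq_one_right this) ▸ inv_mem (Subgroup.mem_zpowers qx))
    have hsq : ∀ z : B, orderOf (π z) = 2 → (z : G) ^ 2 ∈ B₁ := fun z hz => by
      have : π (z ^ 2) = 1 := by rw [map_pow, ← hz, pow_orderOf_eq_one]
      exact (QuotientGroup.eq_one_iff (z ^ 2)).mp this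
    have hx2 : (x : G) ^ 2 ∈ B₁ := hsq x (hqx ▸ hxo)
    have hy2 : (y : G) ^ 2 ∈ B₁ := hsq y (hqy ▸ hyo)
    refine le_of_three_centralizers (isSolvable_of_le inf_le_left) (odd_of_le inf_le_left hodd)
      hA2 hAc (le_normalizer_inf_centralizer hAc hAY (hB₁.trans hB)) (hB x.2) (hB y.2)
      (fun r hr => Subgroup.mem_centralizer_iff.mp hr.2 _ hx2)
      (fun r hr => Subgroup.mem_centralizer_iff.mp hr.2 _ hy2) ?_
    intro z hz
    have hzB : z ∈ B ∧ z ∉ B₁ := by
      rcases hz with rfl | rfl | rfl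
      exacts [⟨x.2, hxq⟩, ⟨y.2, hyq⟩, ⟨B.mul_mem x.2 y.2, hxyq⟩]
    refine le_trans ?_ (ih (B₁ ⊔ Subgroup.zpowers z) ?_
      (sup_le hB₁ (Subgroup.zpowers_le.mpr hzB.1)))
    · refine le_inf (inf_le_left.trans inf_le_left) ?_
      rw [Subgroup.le_centralizer_iff, sup_le_iff, Subgroup.zpowers_le]
      refine ⟨?_, ?_⟩
      · rw [← Subgroup.le_centralizer_iff]
        exact inf_le_left.trans inf_le_right
      · exact Subgroup.mem_centralizer_iff.mpr fun r hr =>
          Subgroup.mem_centralizer_singleton_iff.mp hr.2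
    · exact lt_of_le_of_ne le_sup_left fun h =>
        hzB.2 (h.symm.le (Subgroup.mem_sup_right (Subgroup.mem_zpowers z)))

/-- `Y = ⟨[C_Y(B₀),A]⟩`. -/
theorem le_iSup_commutator {A B Y : Subgroup G} (hA2 : IsPGroup 2 ↥A)
    (hAc : IsMulCommutative ↥A) (hB : B ≤ A) (hsol : Group.IsSolvable ↥Y)
    (hodd : Odd (Nat.card ↥Y)) (hAY : A ≤ Subgroup.normalizer (Y : Set G)) (hYA : ⁅Y, A⁆ = Y) :
    Y ≤ ⨆ B₀ : {B₀ : Subgroup G //
        B₀ ≤ B ∧ ∀ [(B₀.subgroupOf B).Normal], IsCyclic (↥B ⧸ B₀.subgroupOf B)},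
      ⁅Y ⊓ Subgroup.centralizer ((B₀ : Subgroup G) : Set G), A⁆ := by
  let Y₀ : Subgroup G := ⨆ B₀ : {B₀ : Subgroup G //
      B₀ ≤ B ∧ ∀ [(B₀.subgroupOf B).Normal], IsCyclic (↥B ⧸ B₀.subgroupOf B)},
    ⁅Y ⊓ Subgroup.centralizer ((B₀ : Subgroup G) : Set G), A⁆
  show Y ≤ Y₀
  let C : Subgroup G := Y ⊓ Subgroup.centralizer (A : Set G)
  have hcop : (Nat.card A).Coprime (Nat.card Y) := coprime_card hA2 hodd
  have hY₀Y : Y₀ ≤ Y := iSup_le fun _ =>
    (Subgroup.commutator_mono inf_le_left le_rfl).trans hYA.le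
  have hCN : C ≤ Subgroup.normalizer (Y₀ : Set G) := by
    intro c hc
    refine mem_normalizer_of_conj_mem fun x hx => ?_
    refine Subgroup.iSup_induction (C := fun x => c * x * c⁻¹ ∈ Y₀) _ hx (fun i k hk => ?_)
      (by simp) (fun a b ha hb => by simpa [mul_assoc] using Subgroup.mul_mem _ ha hb)
    refine Subgroup.mem_iSup_of_mem i ?_
    refine conj_mem ((le_sup_left.trans (sup_le_normalizer_commutator A _)) ?_) hk
    exact ⟨hc.1, centralizer_mono (i.2.1.trans hB) hc.2⟩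
  have hAN : A ≤ Subgroup.normalizer (Y₀ : Set G) := by
    intro c hc
    refine mem_normalizer_of_conj_mem fun x hx => ?_
    refine Subgroup.iSup_induction (C := fun x => c * x * c⁻¹ ∈ Y₀) _ hx (fun i k hk => ?_)
      (by simp) (fun a b ha hb => by simpa [mul_assoc] using Subgroup.mul_mem _ ha hb)
    exact Subgroup.mem_iSup_of_mem i
      (conj_mem ((le_sup_right.trans (sup_le_normalizer_commutator A _)) hc) hk)
  have hY : Y ≤ Y₀ ⊔ C := by
    have := centralizer_le_of_cyclic_quotients (S := Y₀ ⊔ C) hA2 hAc hB hsol hodd hAY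
      (fun B₀ h1 h2 => ?_) (B₁ := ⊥) bot_le
    · refine le_trans (le_inf le_rfl ?_) this
      rw [Subgroup.le_centralizer_iff]
      exact bot_le
    rw [← commutator_sup_centralizer (le_normalizer_inf_centralizer hAc hAY (h1.trans hB))
      (coprime_card hA2 (odd_of_le inf_le_left hodd)) (Or.inr (isSolvable_of_le inf_le_left))]
    exact sup_le_sup (le_iSup (fun i : {B₀ : Subgroup G //
        B₀ ≤ B ∧ ∀ [(B₀.subgroupOf B).Normal], IsCyclic (↥B ⧸ B₀.subgroupOf B)} =>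
      ⁅Y ⊓ Subgroup.centralizer ((i : Subgroup G) : Set G), A⁆) ⟨B₀, h1, h2⟩)
      (inf_le_inf inf_le_left le_rfl)
  conv_lhs => rw [← hYA]
  refine Subgroup.commutator_le.mpr fun k hk a ha => ?_
  have hk' := hY hk
  rw [← SetLike.mem_coe, Subgroup.coe_mul_of_right_le_normalizer_left Y₀ C hCN] at hk'
  obtain ⟨n, hn, c, hc, rfl⟩ := hk'
  have hca : a * c = c * a := Subgroup.mem_centralizer_iff.mp hc.2 a ha
  have : ⁅n * c, a⁆ = n * (a * n⁻¹ * a⁻¹) := by
    rw [commutatorElement_def, mul_assoc n c a, ← hca]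
    simp [mul_assoc]
  rw [this]
  exact Subgroup.mul_mem _ hn (conj_mem (hAN ha) (Subgroup.inv_mem _ hn))

end CfsgLib.Signalizer.CoprimeGen
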